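import Mathlib

/-!
Subgroups in which every square lies in the derived subgroup.
-/

set_option autoImplicit false

namespace Cfsg.Agent.Lib.SqDer

open scoped commutatorElement

variable {G H : Type*} [Group G] [Group H]

/-- Every square of an element of `U` lies in the derived subgroup of `U`. -/
def SqD (U : Subgroup G) : Prop := ∀ x ∈ U, x ^ 2 ∈ ⁅U, U⁆

lemma sq_mul_mem {U : Subgroup G} {x y : G} (hx : x ∈ U) (hy : y ∈ U) (h1 : x ^ 2 ∈ ⁅U, U⁆) (h2 : y ^ 2 ∈ ⁅U, U⁆) :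
    (x * y) ^ 2 ∈ ⁅U, U⁆ := by
  have e : (x * y) ^ 2 = x ^ 2 * ⁅x⁻¹, y⁆ * y ^ 2 := by
    rw [commutatorElement_def, pow_two (x * y)]
    group
  rw [e]
  exact Subgroup.mul_mem _ (Subgroup.mul_mem _ h1 (Subgroup.commutator_mem_commutator (U.inv_mem hx) hy)) h2

lemma sq_inv_mem {U : Subgroup G} {x : G} (h1 : x ^ 2 ∈ ⁅U, U⁆) : (x⁻¹) ^ 2 ∈ ⁅U, U⁆ := by
  rw [inv_pow]
  exact Subgroup.inv_mem _ h1

/-- It suffices to check squares on generators. -/
lemma SqD.of_closure {U : Subgroup G} {T : Set G} (hT : U ≤ Subgroup.closure T) (hTU : T ⊆ U)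
    (h : ∀ t ∈ T, t ^ 2 ∈ ⁅U, U⁆) : SqD U := by
  have key : ∀ x (hx : x ∈ Subgroup.closure T), x ∈ U ∧ x ^ 2 ∈ ⁅U, U⁆ := by
    intro x hx
    induction hx using Subgroup.closure_induction with
    | mem t ht => exact ⟨hTU ht, h t ht⟩
    | one => exact ⟨U.one_mem, by simp⟩
    | mul a b _ _ ha hb => exact ⟨U.mul_mem ha.1 hb.1, sq_mul_mem ha.1 hb.1 ha.2 hb.2⟩
    | inv a _ ha => exact ⟨U.inv_mem ha.1, sq_inv_mem ha.2⟩
  exact fun x hx => (key x (hT hx)).2

/-- Products of two subgroups. -/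
lemma SqD.of_prod {U A B : Subgroup G} (hA : A ≤ U) (hB : B ≤ U) (hU : ∀ x ∈ U, ∃ a ∈ A, ∃ b ∈ B, x = a * b)
    (hSA : SqD A) (hSB : SqD B) : SqD U := by
  intro x hx
  obtain ⟨a, ha, b, hb, rfl⟩ := hU x hx
  exact sq_mul_mem (hA ha) (hB hb) (Subgroup.commutator_mono hA hA (hSA a ha))
    (Subgroup.commutator_mono hB hB (hSB b hb))

lemma SqD.map {U : Subgroup G} (h : SqD U) (f : G →* H) : SqD (U.map f) := by
  rintro _ ⟨x, hx, rfl⟩
  rw [← map_pow, ← Subgroup.map_commutator]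
  exact ⟨_, h x hx, rfl⟩

lemma SqD.comap_of_injective {U : Subgroup H} (h : SqD U) (f : G →* H) (hf : Function.Injective f)
    (hU : U ≤ f.range) : SqD (U.comap f) := by
  intro x hx
  have hm : (U.comap f).map f = U := by
    rw [Subgroup.map_comap_eq, inf_eq_right.mpr hU]
  have h1 := h (f x) hx
  rw [← map_pow, ← hm, ← Subgroup.map_commutator] at h1
  obtain ⟨z, hz, e⟩ := h1
  rwa [← hf e]

/-- Invariance under conjugation. -/
lemma SqD.conj {U V : Subgroup G} (h : SqD U) (s : G) (hV : ∀ x, x ∈ V ↔ s⁻¹ * x * s ∈ U) : SqD V := by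
  let f : G →* G := (MulAut.conj s).toMonoidHom
  have e : V = U.map f := by
    ext x
    rw [hV]
    constructor
    · intro hx
      exact ⟨_, hx, by simp [f, mul_assoc]⟩
    · rintro ⟨u, hu, rfl⟩
      have : s⁻¹ * f u * s = u := by simp [f, mul_assoc]
      rwa [this]
  rw [e]
  exact h.map f

/-- The form in which the final statements are phrased. -/
lemma of_SqD {U : Subgroup G} (h : SqD U) : ∀ x : U, x ^ 2 ∈ commutator U := by
  intro x
  have h1 := h x x.2
  rw [← Subgroup.map_subtype_commutator] at h1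
  obtain ⟨z, hz, e⟩ := h1
  have : z = x ^ 2 := Subtype.ext (by simpa using e)
  rwa [← this]

/-- Passing from one Sylow subgroup to a quotient, and then to all Sylow subgroups. -/
theorem final_of {G₁ G₂ : Type*} [Group G₁] [Group G₂] [Finite G₁] [Finite G₂] (π : G₁ →* G₂)
    (hπ : Function.Surjective π) {U : Subgroup G₁} (hU : ∃ S : Sylow 2 G₁, (S : Subgroup G₁) = U) (h : SqD U)
    (P : Sylow 2 G₂) : ∀ x : (P : Subgroup G₂), x ^ 2 ∈ commutator (P : Subgroup G₂) := by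
  obtain ⟨S, rfl⟩ := hU
  set S' : Sylow 2 G₂ := S.mapSurjective hπ with hS'
  have hS : SqD (S' : Subgroup G₂) := by
    have e : (S' : Subgroup G₂) = (S : Subgroup G₁).map π := rfl
    rw [e]
    exact h.map π
  obtain ⟨g, hg⟩ := MulAction.exists_smul_eq G₂ S' P
  apply of_SqD
  apply SqD.conj hS g
  intro x
  rw [← hg, Sylow.coe_subgroup_smul, Subgroup.mem_pointwise_smul_iff_inv_smul_mem]
  simp [MulAut.smul_def, MulAut.conj_apply]

end Cfsg.Agent.Lib.SqDer
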