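import Cfsg.Agent.Lib.SqDer.Polar
import Cfsg.Agent.Lib.Polar.Sp
import Cfsg.Agent.Lib.Polar.SU
import Cfsg.Agent.Lib.Polar.OrthFrame
import Cfsg.Agent.Lib.Polar.Minus

/-!
The classical groups with a polar form: squares of elements of Sylow `2`-subgroups in characteristic two lie in the
derived subgroup.
-/

set_option autoImplicit false
set_option linter.unusedSectionVars false
set_option linter.unusedVariables false
set_option linter.style.haveILetI false

namespace Cfsg.Agent.Lib.SqDer.Classical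

open Module Matrix Cfsg QuadraticMap
open Cfsg.Agent.Lib.Polar Cfsg.Agent.Lib.SqDer.PolarS

section sp

open Cfsg.Agent.Lib.Polar.Sp
open Cfsg.Agent.Lib.Classical.SympForm (sympBilin_apply sympBilin_isAlt)
open Cfsg.Agent.Lib.Classical.Alt

variable {F : Type*} [Field F] [Fintype F] [CharP F 2]

theorem psp (m : ℕ) (hm : 1 ≤ m) (P : Sylow 2 (Cfsg.PSp m F)) :
    ∀ x : (P : Subgroup (Cfsg.PSp m F)), x ^ 2 ∈ commutator (P : Subgroup (Cfsg.PSp m F)) := by
  classical
  haveI : Finite (Matrix.symplecticGroup (Fin m) F) := inferInstance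
  have hE : HasRoots (spHom (m := m) (F := F)).range := by
    intro a y c ha hay hc
    exact spHom_surj _
  refine final_UG spHom (spFrame m F) spHom_inj hE ?_ ?_ P
  · intro ht g
    exfalso
    have h1 : Compat (spForm m F) 0 1 := by
      constructor
      · show (1 : F) + (-1) * 1 + sympForm m F 0 0 = 0
        have := sympBilin_isAlt (m := m) (F := F) 0
        simp only [sympBilin_apply] at this
        rw [this]
        ring
      · show (0 : F) + (0 : F) = 0
        simp
    have h2 := ht 0 1 (fun i hi => ⟨SForm.zero_l _, SForm.zero_l _⟩) h1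
    exact one_ne_zero h2
  · intro g _ hfix
    exact Frame.hW_of_Nm_zero (fun _ _ => rfl) hfix

end sp

section su

open Cfsg.Agent.Lib.Polar.SU Cfsg.Agent.Lib.Classical.HermBasic Cfsg.Agent.Lib.Classical.HermBridge
  Cfsg.Agent.Lib.HermCount.Field

variable {F : Type*} [Field F] [Fintype F] [CharP F 2] {q : ℕ}

theorem psu (hF : Fintype.card F = q ^ 2) (n : ℕ) (hn : 2 ≤ n) (P : Sylow 2 (Cfsg.PSU n F q)) :
    ∀ x : (P : Subgroup (Cfsg.PSU n F q)), x ^ 2 ∈ commutator (P : Subgroup (Cfsg.PSU n F q)) := by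
  classical
  obtain ⟨π⟩ := exists_par hF
  haveI : Finite (Cfsg.SU n F q) := inferInstance
  have hE : HasRoots (uHom (hF := hF) (n := n)).range := by
    intro a y c ha hay hc
    have h1 := ElG_det 2 ha hay hc
    have h2 : (ElG ha hay hc).1 ∈ suGroup (hermForm n F q) :=
      mem_suGroup.mpr ⟨(ElG ha hay hc).2.1, h1⟩
    refine ⟨(suEquiv n q).symm ⟨_, h2⟩, ?_⟩
    apply Subtype.ext
    show (suEquiv n q ((suEquiv n q).symm ⟨_, h2⟩)).1 = _
    rw [MulEquiv.apply_symm_apply]
  refine final_UG uHom (uFrame (hF := hF) (n := n) π) uHom_inj hE ?_ ?_ P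
  · intro ht g
    exfalso
    obtain ⟨c, hc0, hc⟩ := (invol_frob hF).exists_pure
    have h1 : Compat (uForm hF n) 0 c := by
      constructor
      · show frobHom hF c + 1 * c + hermForm n F q 0 0 = 0
        have : hermForm n F q 0 0 = 0 := SForm.zero_l (P := uForm hF n) 0
        rw [this]
        linear_combination hc
      · show hermForm n F q 0 0 + (frobHom hF c + frobHom hF (frobHom hF c)) = 0
        have : hermForm n F q 0 0 = 0 := SForm.zero_l (P := uForm hF n) 0
        rw [this, (invol_frob hF).invol]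
        linear_combination hc
    exact hc0 (ht 0 c (fun i hi => ⟨SForm.zero_l _, SForm.zero_l _⟩) h1)
  · intro g ⟨a, ha⟩ hfix
    apply Frame.hW_of_line 2 (fun x hx => line_hyp π hx) hfix
    exact ⟨a, by rw [← map_pow, ha, map_one]⟩

end su

section plus

open Cfsg.Agent.Lib.Witt.Quadratic Cfsg.Agent.Lib.Orth.Refl Cfsg.Agent.Lib.Orth.Wall Cfsg.Agent.Lib.Orth.Gen
  Cfsg.Agent.Lib.Orth.Spin Cfsg.Agent.Lib.Orth.Omega Cfsg.Agent.Lib.Orth.Bridge Cfsg.Agent.Lib.Orth.Forms
  Cfsg.Agent.Lib.Polar.Orth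

variable {F : Type*} [Field F] [Fintype F] [CharP F 2]

theorem pomega_plus (m : ℕ) (hm : 1 ≤ m) (hc : Fintype.card F ≠ 2 ∨ m ≠ 2)
    (P : Sylow 2 (Cfsg.POmega F (Cfsg.quadFormPlus m F))) :
    ∀ x : (P : Subgroup (Cfsg.POmega F (Cfsg.quadFormPlus m F))),
      x ^ 2 ∈ commutator (P : Subgroup (Cfsg.POmega F (Cfsg.quadFormPlus m F))) := by
  classical
  have hQ := plusForm_nondeg (F := F) m
  have hgen' := hgen (plusForm m F) hQ (Cfsg.Agent.Lib.Orth.PlusParity.plus_card hc)
  haveI : Finite (Cfsg.Omega F ⇑(plusForm m F)) := inferInstance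
  set Fr := plusFrame F m hQ with hFr
  have hE : HasRoots (omHom (plusForm m F) hQ).range := by
    intro a y c ha hay hc
    rw [mem_range_iff]
    by_cases hl : ∃ l : F, l ≠ 0 ∧ l ≠ 1
    · exact root_comm' hl ha hay hc
    · exact root_comm_two hgen' ha hay hc
  refine final_UG (omHom (plusForm m F) hQ) Fr omHom_inj hE ?_ ?_ P
  · intro _ g
    have hdim : finrank F (Fin m ⊕ Fin m → F) = 2 * m := by
      simp [two_mul]
    apply no_flip Fr hm hdim hgen'
    rw [← mem_range_iff]
    exact ⟨g, rfl⟩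
  · intro g _ hfix
    apply Frame.hW_of_Nm_zero _ hfix
    intro x hx
    have h1 := Fr.mem_perp.mp hx
    show quadFormPlus m F x = 0
    unfold quadFormPlus
    refine Finset.sum_eq_zero fun j _ => ?_
    have h2 := h1 j.1 j.2
    rw [hFr, plusFrame_e hQ j.2] at h2
    have h3 : polar (quadFormPlus m F) x _ = 0 := h2
    rw [polar_plus] at h3
    simp [Pi.single_apply] at h3
    rw [h3, mul_zero]

end plus

section minus

open Cfsg.Agent.Lib.Witt.Quadratic Cfsg.Agent.Lib.Orth.Refl Cfsg.Agent.Lib.Orth.Wall Cfsg.Agent.Lib.Orth.Gen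
  Cfsg.Agent.Lib.Orth.Spin Cfsg.Agent.Lib.Orth.Omega Cfsg.Agent.Lib.Orth.Bridge Cfsg.Agent.Lib.Orth.Forms
  Cfsg.Agent.Lib.Polar.Orth

variable {F : Type*} [Field F] [Fintype F] [CharP F 2] {m : ℕ} {a b : F}

theorem pomega_minus (hab : ∀ z₁ z₂ : F, z₁ ^ 2 + a * z₁ * z₂ + b * z₂ ^ 2 = 0 → z₁ = 0 ∧ z₂ = 0)
    (P : Sylow 2 (Cfsg.POmega F (Cfsg.quadFormMinus m F a b))) :
    ∀ x : (P : Subgroup (Cfsg.POmega F (Cfsg.quadFormMinus m F a b))),
      x ^ 2 ∈ commutator (P : Subgroup (Cfsg.POmega F (Cfsg.quadFormMinus m F a b))) := by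
  classical
  have hQ := minusForm_nondeg (F := F) m hab
  haveI : Finite (Cfsg.Omega F ⇑(minusForm m F a b)) := inferInstance
  set Fr := minusFrame F m a b hab hQ with hFr
  have hdim : finrank F ((Fin m ⊕ Fin m) ⊕ Fin 2 → F) = 2 * m + 2 := by
    simp [two_mul]
  have hgen' := hgen_two Fr hdim
  have hroots := roots_of_hgen (hQ := hQ) hgen'
  have hWW : ∀ w, w ∈ Fr.WW → ∀ j : Fin m, w (.inl (.inr j)) = 0 ∧ w (.inl (.inl j)) = 0 := by
    intro w hw j
    have h1 := hw j.1 j.2
    rw [hFr, minusFrame_e hab hQ j.2, minusFrame_h hab hQ j.2] at h1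
    have h3 : polar (quadFormMinus m F a b) w _ = 0 := h1.1
    have h4 : polar (quadFormMinus m F a b) w _ = 0 := h1.2
    rw [polar_minus] at h3 h4
    simp [Pi.single_apply] at h3 h4
    exact ⟨by simpa using h3, by simpa using h4⟩
  have hE : HasRoots (omHom (minusForm m F a b) hQ).range := by
    intro a y c ha hay hc
    rw [mem_range_iff]
    exact hroots a y c ha hay hc
  refine final_UG (omHom (minusForm m F a b) hQ) Fr omHom_inj hE ?_ ?_ P
  · intro ht g
    exfalso
    obtain ⟨ω, hω⟩ : ∃ ω : (Fin m ⊕ Fin m) ⊕ Fin 2 → F, ω = Pi.single (.inr 0) 1 := ⟨_, rfl⟩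
    have hωe : ∀ i, i < m → polar (minusForm m F a b) ω (Fr.e i) = 0 ∧ polar (minusForm m F a b) ω (Fr.h i) = 0 := by
      intro i hi
      rw [hFr, minusFrame_e hab hQ hi, minusFrame_h hab hQ hi]
      show polar (quadFormMinus m F a b) _ _ = 0 ∧ polar (quadFormMinus m F a b) _ _ = 0
      rw [polar_minus, polar_minus]
      simp [hω, Pi.single_apply]
    have hω1 : minusForm m F a b ω = 1 := by
      show quadFormMinus m F a b ω = 1
      simp [quadFormMinus, hω, Pi.single_apply]
    have h3 := ht ω (- minusForm m F a b ω) hωe (compat_iff.mpr rfl)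
    rw [hω1] at h3
    exact neg_ne_zero.mpr one_ne_zero h3
  · intro g ⟨k, hk⟩ hfix
    refine hW_two 2 Fr ?_ hgen' hroots ?_ hfix ⟨k, by rw [← map_pow, hk, map_one]⟩
    · let L : Fr.WW →ₗ[F] (Fin 2 → F) :=
        (LinearMap.funLeft F F (Sum.inr : Fin 2 → (Fin m ⊕ Fin m) ⊕ Fin 2)).comp Fr.WW.subtype
      have hL : Function.Injective L := by
        rw [← LinearMap.ker_eq_bot, LinearMap.ker_eq_bot']
        rintro ⟨w, hw⟩ h0
        apply Subtype.ext
        funext k
        rcases k with (k | k) | k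
        · exact (hWW w hw k).2
        · exact (hWW w hw k).1
        · exact congrFun h0 k
      have := LinearMap.finrank_le_finrank_of_injective hL
      simpa using this
    · rw [← mem_range_iff]
      exact ⟨g, rfl⟩

end minus

end Cfsg.Agent.Lib.SqDer.Classical
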