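import Cfsg.Agent.Lib.SqDer.Twist
import Cfsg.Agent.Lib.Steinberg.SylowU
import Cfsg.Agent.Lib.Twisted.D4O
import Cfsg.Agent.Lib.Twisted.E6O
import Cfsg.Agent.Lib.Twisted.F4O

/-!
The exceptional groups in characteristic two.
-/

set_option autoImplicit false
set_option linter.unusedSectionVars false
set_option linter.unusedVariables false
set_option linter.ambiguousOpen false
set_option maxHeartbeats 1000000

namespace Cfsg.Agent.Lib.SqDer.Excep

open scoped MatrixGroups Matrix
open Cfsg _root_.Cfsg.Lie ChevalleyDatum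
open Cfsg.Agent.Lib.Chev
open Tables Tables2 Tables3 Raise Basic AxBasic Torus Products Products2 Mono1 Mono2 Mono3 Bn ChevSimple
open Cfsg.Agent.Lib.Twisted.Fact Cfsg.Agent.Lib.Twisted.Bruhat Cfsg.Agent.Lib.Twisted.Tw
open Cfsg.Agent.Lib.Twisted.Struct Cfsg.Agent.Lib.Twisted.Check Cfsg.Agent.Lib.Twisted.Ortho
open Cfsg.Agent.Lib.Twisted.Struct.TD
open Cfsg.Agent.Lib.SqDer Cfsg.Agent.Lib.SqDer.Twist

section roots

variable {D : ChevalleyDatum} {K : Type*} [Field K] [CharP K 2] (ax : Ax D K)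

lemma xG_sq (r : ℕ) (t : K) : xG ax r t ^ 2 = 1 := by
  rw [pow_two, xG_add, CharTwo.add_self_eq_zero, xG_zero]

/-- Root closures are generated by involutions. -/
lemma sq_rootClosure (P : ℕ → Prop) : SqD (rootClosure ax P) := by
  refine SqD.of_closure le_rfl Subgroup.subset_closure ?_
  rintro _ ⟨r, t, _, rfl⟩
  rw [xG_sq]
  exact Subgroup.one_mem _

/-- Closures of a list of pairwise commuting roots have exponent two. -/
lemma sq_one_of_comm {P : ℕ → Prop}
    (hc : ∀ r s, P r → P s → ∀ a b : K, xG ax r a * xG ax s b = xG ax s b * xG ax r a)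
    {g : GL D.Idx K} (hg : g ∈ rootClosure ax P) : g ^ 2 = 1 := by
  have hcomm : ∀ x ∈ {g : GL D.Idx K | ∃ (r : ℕ) (t : K), P r ∧ g = xG ax r t},
      ∀ y ∈ {g : GL D.Idx K | ∃ (r : ℕ) (t : K), P r ∧ g = xG ax r t}, x * y = y * x := by
    rintro _ ⟨r, a, hr, rfl⟩ _ ⟨s, b, hs, rfl⟩
    exact hc r s hr hs a b
  haveI := Subgroup.isMulCommutative_closure hcomm
  have key : ∀ g (hg : g ∈ Subgroup.closure {g : GL D.Idx K | ∃ (r : ℕ) (t : K), P r ∧ g = xG ax r t}),
      g ^ 2 = 1 := by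
    intro g hg
    induction hg using Subgroup.closure_induction with
    | mem x hx =>
      obtain ⟨r, t, _, rfl⟩ := hx
      exact xG_sq ax r t
    | one => simp
    | mul a b ha hb h1 h2 =>
      have e := mul_comm' (⟨a, ha⟩ : Subgroup.closure {g : GL D.Idx K | ∃ (r : ℕ) (t : K), P r ∧ g = xG ax r t}) ⟨b, hb⟩
      have e' : a * b = b * a := congrArg Subtype.val e
      rw [(show Commute a b from e').mul_pow, h1, h2, one_mul]
    | inv a _ h1 => rw [inv_pow, h1, inv_one]
  exact key g hg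

/-- The fixed points of a class consisting of pairwise commuting roots. -/
lemma sq_fix_of_list {h : Tab D} {tw : Tw h ax} {l R : List ℕ} (hpsi : psiEq D l R = true)
    (hc : ∀ r ∈ R, ∀ s ∈ R, ∀ a b : K, xG ax r a * xG ax s b = xG ax s b * xG ax r a) :
    SqD (fixCl tw (Psi D (· ∈ l))) := by
  rintro g ⟨hg, -⟩
  have h1 := closure_of_check ax hpsi (P := (· ∈ R)) (fun r hr => hr) hg
  rw [sq_one_of_comm ax (fun r s hr hs a b => hc r hr s hs a b) h1]
  exact Subgroup.one_mem _

lemma xG_comm_self (r : ℕ) (a b : K) : xG ax r a * xG ax r b = xG ax r b * xG ax r a := by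
  rw [xG_add, xG_add, add_comm]

end roots

/-- Chevalley groups. -/
theorem chev {F : Type*} [Field F] [Fintype F] [CharP F 2] {D : ChevalleyDatum}
    (hD : D ∈ [chevG2, chevB2, chevD4, chevF4, chevE6, chevE7, chevE8]) (P : Sylow 2 ↥(D.group F)) :
    ∀ x : (P : Subgroup ↥(D.group F)), x ^ 2 ∈ commutator (P : Subgroup ↥(D.group F)) := by
  have h := tab_of_mem hD
  have ax : Ax D F := Cfsg.Agent.Lib.Lie.AxOf.ax_of_mem hD
  have hle : D.posUnipotent F ≤ D.group F := U_le_group h ax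
  have hS : SqD ((D.posUnipotent F).subgroupOf (D.group F)) := by
    refine SqD.comap_of_injective ?_ (D.group F).subtype (Subtype.val_injective) ?_
    · rw [posUnipotent_eq ax]
      exact sq_rootClosure ax _
    · rw [Subgroup.range_subtype]
      exact hle
  exact final_of (MonoidHom.id _) Function.surjective_id (Cfsg.Agent.Lib.Steinberg.SylowU.exists_sylow hD 2) hS P

/-- From the order of `U¹`. -/
theorem final_twisted {Γ : Type*} [Group Γ] {G1 U : Subgroup Γ} [Finite G1] (hle : U ≤ G1) (hS : SqD U) {a c : ℕ}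
    (hU : Nat.card U = 2 ^ a) (hG : Nat.card G1 = 2 ^ a * c) (hc : ¬ 2 ∣ c) (P : Sylow 2 G1) :
    ∀ x : (P : Subgroup G1), x ^ 2 ∈ commutator (P : Subgroup G1) := by
  have hcardU : Nat.card (U.subgroupOf G1) = 2 ^ a := by
    rw [← hU]
    exact Nat.card_congr (Subgroup.subgroupOfEquivOfLe hle).toEquiv
  have hP : IsPGroup 2 (U.subgroupOf G1) := IsPGroup.of_card hcardU
  have hidx : ¬ 2 ∣ (U.subgroupOf G1).index := by
    have h3 := Subgroup.card_mul_index (U.subgroupOf G1)
    rw [hcardU, hG] at h3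
    have h4 : (U.subgroupOf G1).index = c :=
      Nat.eq_of_mul_eq_mul_left (by positivity) h3
    rwa [h4]
  have hS' : SqD (U.subgroupOf G1) := by
    refine SqD.comap_of_injective hS G1.subtype Subtype.val_injective ?_
    rw [Subgroup.range_subtype]
    exact hle
  exact final_of (MonoidHom.id _) Function.surjective_id ⟨hP.toSylow hidx, IsPGroup.toSylow_coe hP hidx⟩ hS' P

/-- `q` is a power of two. -/
lemma two_pow_of {q : ℕ} (hq : IsPrimePow q) (h2 : Even q) : ∃ m, q = 2 ^ m := by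
  obtain ⟨p, k, hp, hk, e⟩ := hq
  have hp2 : p = 2 := by
    have h3 : 2 ∣ p ^ k := e ▸ h2.two_dvd
    exact ((Nat.prime_dvd_prime_iff_eq Nat.prime_two hp.nat_prime).mp (Nat.prime_two.dvd_of_dvd_pow h3)).symm
  exact ⟨k, by rw [← e, hp2]⟩

lemma even_of_pow {K : Type*} [Field K] [Fintype K] [CharP K 2] {q k : ℕ} (hk : k ≠ 0) (hK : Fintype.card K = q ^ k) : Even q := by
  obtain ⟨n, _, hn⟩ := FiniteField.card K 2
  have h1 : Even (q ^ k) := by
    rw [← hK, hn]
    exact (even_two).pow_of_ne_zero n.ne_zero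
  exact (Nat.even_pow.mp h1).1

/-! ### `³D₄` -/

section D4

open Cfsg.Agent.Lib.Twisted.D4

variable {K : Type*} [Field K] [Fintype K] [CharP K 2] {q : ℕ}

theorem d4 (hq : IsPrimePow q) (hK : Fintype.card K = q ^ 3) (P : Sylow 2 ↥(twistedD4 K q)) :
    ∀ x : (P : Subgroup ↥(twistedD4 K q)), x ^ 2 ∈ commutator (P : Subgroup ↥(twistedD4 K q)) := by
  obtain ⟨φ, hφ, hφ3⟩ := exists_φ hq hK
  have ax : Ax chevD4 K := Cfsg.Agent.Lib.Lie.AxOf.ax_of_mem hmemD4
  have h2 : Even q := even_of_pow (k := 3) (K := K) (by norm_num) hK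
  obtain ⟨m, hm⟩ := two_pow_of hq h2
  have hJ : ∀ j : Fin 2, SqD (fixCl (twD φ ax) (Psi chevD4 (· ∈ Cd.cls j))) := by
    intro j
    fin_cases j
    · refine sq_fix_of_list ax (R := [14]) psi0 ?_
      intro r hr s hs a b
      simp only [List.mem_singleton] at hr hs
      subst hr hs
      exact xG_comm_self ax _ _ _
    · refine sq_fix_of_list ax (R := [12, 13, 18]) psi1 ?_
      have H1 : CommPair chevD4 12 13 := by decide +kernel
      have H2 : CommPair chevD4 12 18 := by decide +kernel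
      have H3 : CommPair chevD4 13 18 := by decide +kernel
      intro r hr s hs a b
      simp only [List.mem_cons, List.not_mem_nil, or_false] at hr hs
      rcases hr with rfl | rfl | rfl <;> rcases hs with rfl | rfl | rfl
      · exact xG_comm_self ax _ _ _
      · exact (H1.comm ax a b).symm
      · exact (H2.comm ax a b).symm
      · exact H1.comm ax b a
      · exact xG_comm_self ax _ _ _
      · exact (H3.comm ax a b).symm
      · exact H2.comm ax b a
      · exact H3.comm ax b a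
      · exact xG_comm_self ax _ _ _
  have hS : SqD (chevD4.posUnipotent K ⊓ twistedD4 K q) :=
    sq_of_tables Cd hD2 (factsD φ ax) (nD ax) (G1_le φ hφ hφ3 ax) (n_mem φ hφ hφ3 ax) (n_mono ax) (n_nor ax)
      (cl φ hφ hφ3 ax) (x_ne ax) (gen ax) chainCd hJ
  have hq2 := hq.two_le
  have hcU : Nat.card ↥(chevD4.posUnipotent K ⊓ twistedD4 K q) = 2 ^ (m * 12) := by
    rw [card_U_main hq hK, hm, pow_mul]
  refine final_twisted inf_le_right hS hcU (c := (q ^ 2 - 1) * (q ^ 6 - 1) * (q ^ 8 + q ^ 4 + 1)) ?_ ?_ P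
  · rw [Cfsg.Agent.Lib.Twisted.D4O.card_D4 hq hK, pow_mul, ← hm]
    ring
  · have o1 : Odd (q ^ 2 - 1) := Nat.Even.sub_odd (Nat.one_le_pow _ _ (by omega)) (h2.pow_of_ne_zero two_ne_zero) odd_one
    have o2 : Odd (q ^ 6 - 1) := Nat.Even.sub_odd (Nat.one_le_pow _ _ (by omega)) (h2.pow_of_ne_zero (by norm_num)) odd_one
    have o3 : Odd (q ^ 8 + q ^ 4 + 1) := ((h2.pow_of_ne_zero (by norm_num)).add (h2.pow_of_ne_zero (by norm_num))).add_one
    exact ((o1.mul o2).mul o3).not_two_dvd_nat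

end D4

/-! ### `²E₆` -/

section E6

open Cfsg.Agent.Lib.Twisted.E6

variable {K : Type*} [Field K] [Fintype K] [CharP K 2] {q : ℕ}

theorem e6 (hq : IsPrimePow q) (hK : Fintype.card K = q ^ 2) (P : Sylow 2 ↥(twistedE6 K q)) :
    ∀ x : (P : Subgroup ↥(twistedE6 K q)), x ^ 2 ∈ commutator (P : Subgroup ↥(twistedE6 K q)) := by
  obtain ⟨φ, hφ, hφ2⟩ := exists_φ hq hK
  have ax : Ax chevE6 K := Cfsg.Agent.Lib.Lie.AxOf.ax_of_mem hmemE6
  have h2 : Even q := even_of_pow (k := 2) (K := K) (by norm_num) hK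
  obtain ⟨m, hm⟩ := two_pow_of hq h2
  have hJ : ∀ j : Fin 4, SqD (fixCl (twE φ ax) (Psi chevE6 (· ∈ Ce.cls j))) := by
    intro j
    fin_cases j
    · refine sq_fix_of_list ax (R := [46]) psi0 ?_
      intro r hr s hs a b
      simp only [List.mem_singleton] at hr hs
      subst hr hs
      exact xG_comm_self ax _ _ _
    · refine sq_fix_of_list ax (R := [39]) psi1 ?_
      intro r hr s hs a b
      simp only [List.mem_singleton] at hr hs
      subst hr hs
      exact xG_comm_self ax _ _ _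
    · refine sq_fix_of_list ax (R := [36, 56]) psi2 ?_
      have H1 : CommPair chevE6 36 56 := by decide +kernel
      intro r hr s hs a b
      simp only [List.mem_cons, List.not_mem_nil, or_false] at hr hs
      rcases hr with rfl | rfl <;> rcases hs with rfl | rfl
      · exact xG_comm_self ax _ _ _
      · exact (H1.comm ax a b).symm
      · exact H1.comm ax b a
      · exact xG_comm_self ax _ _ _
    · refine sq_fix_of_list ax (R := [37, 42]) psi3 ?_
      have H1 : CommPair chevE6 37 42 := by decide +kernel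
      intro r hr s hs a b
      simp only [List.mem_cons, List.not_mem_nil, or_false] at hr hs
      rcases hr with rfl | rfl <;> rcases hs with rfl | rfl
      · exact xG_comm_self ax _ _ _
      · exact (H1.comm ax a b).symm
      · exact H1.comm ax b a
      · exact xG_comm_self ax _ _ _
  have hS : SqD (chevE6.posUnipotent K ⊓ twistedE6 K q) :=
    sq_of_tables Ce hE2 (factsE φ ax) (nE ax) (G1_le φ hφ hφ2 ax) (n_mem φ hφ hφ2 ax) (n_mono ax) (n_nor ax)
      (cl φ hφ hφ2 ax) (x_ne ax) (gen ax) chainCe hJ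
  have hq2 := hq.two_le
  have hcU : Nat.card ↥(chevE6.posUnipotent K ⊓ twistedE6 K q) = 2 ^ (m * 36) := by
    rw [card_U_main hq hK, hm, pow_mul]
  -- the order, up to the odd factor
  have hcard := Cfsg.Agent.Lib.Twisted.E6O.card_E6 hq hK
  have hg : ¬ 2 ∣ Nat.gcd 3 (q + 1) := fun h => by
    have := h.trans (Nat.gcd_dvd_left 3 (q + 1))
    omega
  -- index of `U` is odd
  obtain ⟨c, hc⟩ : (q ^ 36) ∣ Nat.card ↥(twistedE6 K q) := by
    have h3 : q ^ 36 ∣ Nat.gcd 3 (q + 1) * Nat.card ↥(twistedE6 K q) := by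
      rw [hcard]
      exact ⟨(q ^ 2 - 1) * (q ^ 5 + 1) * (q ^ 6 - 1) * (q ^ 8 - 1) * (q ^ 9 + 1) * (q ^ 12 - 1), by ring⟩
    have hcop : Nat.Coprime (q ^ 36) (Nat.gcd 3 (q + 1)) := by
      apply Nat.Coprime.pow_left
      rw [hm]
      cases m with
      | zero => simp
      | succ m =>
        apply Nat.Coprime.pow_left
        exact (Nat.coprime_primes Nat.prime_two Nat.prime_three).mpr (by norm_num) |>.coprime_dvd_right (Nat.gcd_dvd_left 3 _)
    exact hcop.dvd_of_dvd_mul_left h3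
  refine final_twisted inf_le_right hS hcU (c := c) ?_ ?_ P
  · rw [hc, pow_mul, ← hm]
  · intro hd
    have h5 : Nat.gcd 3 (q + 1) * c = (q ^ 2 - 1) * (q ^ 5 + 1) * (q ^ 6 - 1) * (q ^ 8 - 1) * (q ^ 9 + 1) * (q ^ 12 - 1) := by
      have hpos : 0 < q ^ 36 := by positivity
      apply Nat.eq_of_mul_eq_mul_left hpos
      calc q ^ 36 * (Nat.gcd 3 (q + 1) * c) = Nat.gcd 3 (q + 1) * (q ^ 36 * c) := by ring
        _ = Nat.gcd 3 (q + 1) * Nat.card ↥(twistedE6 K q) := by rw [hc]
        _ = _ := by rw [hcard]; ring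
    have hd' : 2 ∣ (q ^ 2 - 1) * (q ^ 5 + 1) * (q ^ 6 - 1) * (q ^ 8 - 1) * (q ^ 9 + 1) * (q ^ 12 - 1) := by
      rw [← h5]
      exact Dvd.dvd.mul_left hd _
    have o1 : Odd (q ^ 2 - 1) := Nat.Even.sub_odd (Nat.one_le_pow _ _ (by omega)) (h2.pow_of_ne_zero two_ne_zero) odd_one
    have o2 : Odd (q ^ 5 + 1) := (h2.pow_of_ne_zero (by norm_num)).add_one
    have o3 : Odd (q ^ 6 - 1) := Nat.Even.sub_odd (Nat.one_le_pow _ _ (by omega)) (h2.pow_of_ne_zero (by norm_num)) odd_one
    have o4 : Odd (q ^ 8 - 1) := Nat.Even.sub_odd (Nat.one_le_pow _ _ (by omega)) (h2.pow_of_ne_zero (by norm_num)) odd_one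
    have o5 : Odd (q ^ 9 + 1) := (h2.pow_of_ne_zero (by norm_num)).add_one
    have o6 : Odd (q ^ 12 - 1) := Nat.Even.sub_odd (Nat.one_le_pow _ _ (by omega)) (h2.pow_of_ne_zero (by norm_num)) odd_one
    exact (((((o1.mul o2).mul o3).mul o4).mul o5).mul o6).not_two_dvd_nat hd'

end E6

end Cfsg.Agent.Lib.SqDer.Excep
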