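import Cfsg.Agent.Lib.SqDer.Excep
import Cfsg.Agent.Lib.F24.PerfF4

/-!
`²F₄(q)`, `q > 2`: squares of elements of the Sylow `2`-subgroup lie in its derived subgroup.
-/

set_option autoImplicit false
set_option linter.unusedSectionVars false
set_option linter.unusedVariables false
set_option linter.ambiguousOpen false
set_option maxHeartbeats 1000000

namespace Cfsg.Agent.Lib.SqDer.F4

open scoped MatrixGroups Matrix commutatorElement
open Cfsg _root_.Cfsg.Lie ChevalleyDatum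
open Cfsg.Agent.Lib.Chev
open Tables Tables2 Tables3 Raise Basic AxBasic Torus Products Products2 Mono1 Mono2 Mono3 Bn ChevSimple
open Cfsg.Agent.Lib.Twisted.Fact Cfsg.Agent.Lib.Twisted.Bruhat Cfsg.Agent.Lib.Twisted.Tw
open Cfsg.Agent.Lib.Twisted.Struct Cfsg.Agent.Lib.Twisted.Check Cfsg.Agent.Lib.Twisted.Ortho
open Cfsg.Agent.Lib.Twisted.Struct.TD
open Cfsg.Agent.Lib.F24.Blocks Cfsg.Agent.Lib.F24.F4Data Cfsg.Agent.Lib.F24.Tw Cfsg.Agent.Lib.F24.WordEq
open Cfsg.Agent.Lib.F24.TD Cfsg.Agent.Lib.F24.Main Cfsg.Agent.Lib.F24.PerfF4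
open Cfsg.Agent.Lib.SqDer Cfsg.Agent.Lib.SqDer.Twist Cfsg.Agent.Lib.SqDer.Excep

variable {K : Type*} [Field K] [CharP K 2] {e : ℕ}
variable (φ : K →+* K) (hφ : ∀ t, φ t = t ^ e) (hφ2 : ∀ t, (φ (φ t)) ^ 2 = t) (ax : Ax chevF4 K)

/-- The elements of the class of type `B₂`. -/
noncomputable abbrev αF (t u : K) : GL chevF4.Idx K := αV ax φ f4a f4b f4ab f4aab t u

include hφ2 in
lemma αF_mul (t u t' u' : K) : αF φ ax t u * αF φ ax t' u' = αF φ ax (t + t') (u + u' + φ t * t') :=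
  α_mul ax bt_pos btx_pos φ hφ2 t u t' u'

include hφ hφ2 in
lemma αF_mem (t u : K) : αF φ ax t u ∈ TD.fixCl (twF φ ax) (Psi chevF4 (· ∈ Cf.cls 1)) := by
  refine ⟨?_, G1_le φ hφ hφ2 ax (mem_α ax φ hφ (a := f4a) (b := f4b) (ab := f4ab) (aab := f4aab) (Or.inl ⟨rfl, rfl, rfl, rfl⟩) t u)⟩
  simp only [αV, V]
  have hm : ∀ r ∈ [25, 27, 28, 30], r < chevF4.nroots → ∀ t : K, xG ax r t ∈ rootClosure ax (Psi chevF4 (· ∈ Cf.cls 1)) :=
    fun r hr hn t => xG_mem_rootClosure ax (mem_psi_of_check psi1 hn hr) t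
  exact Subgroup.mul_mem _ (Subgroup.mul_mem _ (Subgroup.mul_mem _ (hm _ (by simp [f4a]) (by decide) _) (hm _ (by simp [f4b]) (by decide) _))
    (hm _ (by simp [f4ab]) (by decide) _)) (hm _ (by simp [f4aab]) (by decide) _)

include hφ2 in
/-- The values of the alternating form. -/
lemma exists_value {s₀ : K} (hs₀ : φ s₀ ≠ s₀) (z : K) : ∃ s s' : K, φ s * s' + φ s' * s = z := by
  by_cases hz : z = 0
  · exact ⟨0, 0, by simp [hz]⟩
  have hc0 : φ s₀ + s₀ ≠ 0 := by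
    intro h
    apply hs₀
    have h3 := add_self' s₀
    linear_combination h - h3
  set c₀ := φ s₀ + s₀ with hc₀
  set w := z / c₀ with hw
  have hw0 : w ≠ 0 := div_ne_zero hz hc0
  have hφw : φ w ≠ 0 := by
    simpa using hw0
  set l := (w / φ w) ^ 2 with hl
  have hll : φ l * l = w := by
    rw [hl, map_pow, map_div₀]
    have h3 := hφ2 w
    have h4 : (φ (φ w)) ^ 2 ≠ 0 := by rw [h3]; exact hw0
    have h5 : φ (φ w) ≠ 0 := fun h => h4 (by rw [h]; simp)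
    rw [div_pow, div_pow, h3]
    field_simp
  refine ⟨l * s₀, l, ?_⟩
  rw [map_mul]
  calc φ l * φ s₀ * l + φ l * (l * s₀) = (φ l * l) * c₀ := by rw [hc₀]; ring
    _ = z := by rw [hll, hw]; field_simp

include hφ hφ2 in
/-- The class of type `B₂`. -/
lemma sq_class1 {s₀ : K} (hs₀ : φ s₀ ≠ s₀) : SqD (TD.fixCl (twF φ ax) (Psi chevF4 (· ∈ Cf.cls 1))) := by
  rintro g ⟨hg, hs⟩
  obtain ⟨t, u, rfl⟩ := cl_B φ hφ2 ax hg hs.2
  have e1 : (αV ax φ f4a f4b f4ab f4aab t u) ^ 2 = αF φ ax 0 (φ t * t) := by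
    rw [pow_two]
    show αF φ ax t u * αF φ ax t u = _
    rw [αF_mul φ hφ2 ax, add_self', add_self', zero_add]
  obtain ⟨s, s', hss⟩ := exists_value φ hφ2 hs₀ (φ t * t)
  rw [e1]
  have hab : αF φ ax s 0 * αF φ ax s' 0 = αF φ ax 0 (φ t * t) * (αF φ ax s' 0 * αF φ ax s 0) := by
    rw [αF_mul φ hφ2 ax, αF_mul φ hφ2 ax, αF_mul φ hφ2 ax]
    congr 1
    · ring
    · rw [map_zero, ← hss]
      have h3 := add_self' (φ s' * s)
      linear_combination -h3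
  have e2 : αF φ ax 0 (φ t * t) = ⁅αF φ ax s 0, αF φ ax s' 0⁆ := by
    rw [commutatorElement_def, hab]
    group
  rw [e2]
  exact Subgroup.commutator_mem_commutator (αF_mem φ hφ hφ2 ax _ _) (αF_mem φ hφ hφ2 ax _ _)

include hφ hφ2 in
/-- The pair class. -/
lemma sq_class0 : SqD (TD.fixCl (twF φ ax) (Psi chevF4 (· ∈ Cf.cls 0))) := by
  refine sq_fix_of_list ax (R := [24, 33]) psi0 ?_
  have H1 : CommPair chevF4 24 33 := by decide +kernel
  intro r hr s hs a b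
  simp only [List.mem_cons, List.not_mem_nil, or_false] at hr hs
  rcases hr with rfl | rfl <;> rcases hs with rfl | rfl
  · exact xG_comm_self ax _ _ _
  · exact (H1.comm ax a b).symm
  · exact H1.comm ax b a
  · exact xG_comm_self ax _ _ _

end Cfsg.Agent.Lib.SqDer.F4

namespace Cfsg.Agent.Lib.SqDer.F4

open scoped MatrixGroups Matrix commutatorElement
open Cfsg _root_.Cfsg.Lie ChevalleyDatum
open Cfsg.Agent.Lib.Chev
open Tables Tables2 Tables3 Raise Basic AxBasic Torus Products Products2 Mono1 Mono2 Mono3 Bn ChevSimple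
open Cfsg.Agent.Lib.Twisted.Fact Cfsg.Agent.Lib.Twisted.Bruhat Cfsg.Agent.Lib.Twisted.Tw
open Cfsg.Agent.Lib.Twisted.Struct Cfsg.Agent.Lib.Twisted.Check Cfsg.Agent.Lib.Twisted.Ortho
open Cfsg.Agent.Lib.Twisted.Struct.TD
open Cfsg.Agent.Lib.F24.Blocks Cfsg.Agent.Lib.F24.F4Data Cfsg.Agent.Lib.F24.Tw Cfsg.Agent.Lib.F24.WordEq
open Cfsg.Agent.Lib.F24.TD Cfsg.Agent.Lib.F24.Main Cfsg.Agent.Lib.F24.PerfF4
open Cfsg.Agent.Lib.SqDer Cfsg.Agent.Lib.SqDer.Twist Cfsg.Agent.Lib.SqDer.Excep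

variable {K : Type*} [Field K] [Fintype K] {m : ℕ}

theorem f4 (hm : 1 ≤ m) (hK : Fintype.card K = 2 ^ (2 * m + 1)) (P : Sylow 2 ↥(twistedF4 K (2 ^ m))) :
    ∀ x : (P : Subgroup ↥(twistedF4 K (2 ^ m))), x ^ 2 ∈ commutator (P : Subgroup ↥(twistedF4 K (2 ^ m))) := by
  haveI := charP_of_card hK
  obtain ⟨φ, hφ, hφ2⟩ := exists_φ hK
  have ax : Ax chevF4 K := Cfsg.Agent.Lib.Lie.AxOf.ax_of_mem hmemF4
  have hne : ∃ s₀ : K, φ s₀ ≠ s₀ := by
    by_contra hcon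
    push Not at hcon
    have h01 : ∀ s : K, s = 0 ∨ s = 1 := by
      intro s
      have h3 := hφ2 s
      rw [hcon, hcon] at h3
      have h4 : s * (s - 1) = 0 := by linear_combination h3
      rcases mul_eq_zero.mp h4 with h5 | h5
      · exact Or.inl h5
      · exact Or.inr (sub_eq_zero.mp h5)
    have h5 : Fintype.card K ≤ 2 := by
      classical
      have : (Finset.univ : Finset K) ⊆ {0, 1} := fun s _ => by
        rcases h01 s with h | h <;> simp [h]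
      calc Fintype.card K = (Finset.univ : Finset K).card := rfl
        _ ≤ ({0, 1} : Finset K).card := Finset.card_le_card this
        _ ≤ 2 := Finset.card_le_two
    rw [hK] at h5
    have h6 : 2 ^ 3 ≤ 2 ^ (2 * m + 1) := Nat.pow_le_pow_right (by norm_num) (by omega)
    omega
  obtain ⟨s₀, hs₀⟩ := hne
  have hJ : ∀ j : Fin 2, SqD (TD.fixCl (twF φ ax) (Psi chevF4 (· ∈ Cf.cls j))) := by
    intro j
    fin_cases j
    · exact sq_class0 φ hφ hφ2 ax
    · exact sq_class1 φ hφ hφ2 ax hs₀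
  have hS : SqD (chevF4.posUnipotent K ⊓ twistedF4 K (2 ^ m)) :=
    sq_of_tables Cf hF2 (factsF φ ax) (nF ax) (G1_le φ hφ hφ2 ax) (n_mem φ hφ ax) (n_mono ax) (n_nor ax)
      (cl φ hφ hφ2 ax) (x_ne φ hφ ax) (gen ax) chainCf hJ
  have hcU : Nat.card ↥(chevF4.posUnipotent K ⊓ twistedF4 K (2 ^ m)) = 2 ^ ((2 * m + 1) * 12) := by
    rw [card_U_main hK, pow_mul]
  set Q := 2 ^ (2 * m + 1) with hQ
  have hev : Even Q := (even_two).pow_of_ne_zero (by omega)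
  have hQ1 : 1 ≤ Q := Nat.one_le_pow _ _ (by norm_num)
  refine final_twisted inf_le_right hS hcU (c := (Q - 1) * (Q ^ 3 + 1) * (Q ^ 4 - 1) * (Q ^ 6 + 1)) ?_ ?_ P
  · rw [Cfsg.Agent.Lib.Twisted.F4O.card_F4 hK, pow_mul, ← hQ]
    ring
  · have o1 : Odd (Q - 1) := Nat.Even.sub_odd hQ1 hev odd_one
    have o2 : Odd (Q ^ 3 + 1) := (hev.pow_of_ne_zero (by norm_num)).add_one
    have o3 : Odd (Q ^ 4 - 1) := Nat.Even.sub_odd (Nat.one_le_pow _ _ (by omega)) (hev.pow_of_ne_zero (by norm_num)) odd_one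
    have o4 : Odd (Q ^ 6 + 1) := (hev.pow_of_ne_zero (by norm_num)).add_one
    exact ((((o1.mul o2).mul o3).mul o4)).not_two_dvd_nat

end Cfsg.Agent.Lib.SqDer.F4
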