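import Cfsg.Agent.Lib.KS71.PSLSylow
import Cfsg.Agent.Lib.SqDer.Basic

/-!
`PSL_n(F)`, `F` of characteristic two: the unitriangular group is generated by involutions.
-/

set_option autoImplicit false
set_option linter.unusedSectionVars false
set_option linter.unusedVariables false

namespace Cfsg.Agent.Lib.SqDer.PSL

open Cfsg.Agent.Lib.SqDer
open Matrix Cfsg.Agent.Lib.KS71.UniTri Cfsg.Agent.Lib.KS71.PSLCore Cfsg.Agent.Lib.KS71.PSLSylow
open scoped MatrixGroups

variable {F : Type*} [Field F] [Fintype F] {n : ℕ}

/-- The elementary elements. -/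
def ele (i j : Fin n) (hij : i < j) (a : F) : Matrix.SpecialLinearGroup (Fin n) F :=
  ⟨transvection i j a, det_transvection_of_ne i j hij.ne a⟩

lemma ele_coe (i j : Fin n) (hij : i < j) (a : F) :
    ((ele i j hij a : Matrix.SpecialLinearGroup (Fin n) F) : Matrix (Fin n) (Fin n) F) = transvection i j a := rfl

lemma ele_mem (i j : Fin n) (hij : i < j) (a : F) : ele i j hij a ∈ U n F := by
  rw [mem_U, ele_coe]
  intro k l hkl
  rw [transvection, Matrix.add_apply, Matrix.single_apply]
  have : ¬ (i = k ∧ j = l) := by
    rintro ⟨rfl, rfl⟩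
    exact absurd hij (not_lt.mpr hkl)
  rw [if_neg this, add_zero, Matrix.one_apply]

/-- The generators. -/
def genE : Set (Matrix.SpecialLinearGroup (Fin n) F) :=
  {g | ∃ (i j : Fin n) (hij : i < j) (a : F), g = ele i j hij a}

/-- Number of non-trivial entries. -/
noncomputable def supp (A : Matrix (Fin n) (Fin n) F) : Finset (Fin n × Fin n) := by
  classical
  exact Finset.univ.filter fun p => A p.1 p.2 ≠ (1 : Matrix (Fin n) (Fin n) F) p.1 p.2

lemma mem_supp {A : Matrix (Fin n) (Fin n) F} {p : Fin n × Fin n} :
    p ∈ supp A ↔ A p.1 p.2 ≠ (1 : Matrix (Fin n) (Fin n) F) p.1 p.2 := by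
  classical
  simp [supp]

lemma U_le_closure : U n F ≤ Subgroup.closure (genE (n := n) (F := F)) := by
  have key : ∀ N : ℕ, ∀ A ∈ U n F, (supp (A : Matrix (Fin n) (Fin n) F)).card ≤ N → A ∈ Subgroup.closure (genE (n := n) (F := F)) := by
    intro N
    induction N with
    | zero =>
      intro A hA h0
      have h1 : supp (A : Matrix (Fin n) (Fin n) F) = ∅ := Finset.card_eq_zero.mp (Nat.le_zero.mp h0)
      have h2 : A = 1 := by
        apply Subtype.ext
        ext i j
        by_contra h
        have : (i, j) ∈ supp (A : Matrix (Fin n) (Fin n) F) := mem_supp.mpr h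
        rw [h1] at this
        simp at this
      rw [h2]
      exact Subgroup.one_mem _
    | succ N ih =>
      intro A hA hN
      by_cases hNN : (supp (A : Matrix (Fin n) (Fin n) F)).card ≤ N
      · exact ih A hA hNN
      have hne : (supp (A : Matrix (Fin n) (Fin n) F)).Nonempty := by
        rw [← Finset.card_pos]
        omega
      obtain ⟨p, hp, hmax⟩ := Finset.exists_max_image _ (fun p : Fin n × Fin n => p.1) hne
      obtain ⟨i, j⟩ := p
      have hpm := mem_supp.mp hp
      simp only at hpm
      have hij : i < j := by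
        by_contra h
        exact hpm (hA i j (not_lt.mp h))
      have hrow : ∀ l, (A : Matrix (Fin n) (Fin n) F) j l = (1 : Matrix (Fin n) (Fin n) F) j l := by
        intro l
        by_contra h
        have := hmax (j, l) (mem_supp.mpr h)
        exact absurd hij (not_lt.mpr this)
      set a := (A : Matrix (Fin n) (Fin n) F) i j with ha
      set B := ele i j hij (-a) * A with hB
      have hBU : B ∈ U n F := (U n F).mul_mem (ele_mem _ _ _ _) hA
      have hBe : ∀ k l, (B : Matrix (Fin n) (Fin n) F) k l =
          if k = i then (A : Matrix (Fin n) (Fin n) F) i l + (-a) * (1 : Matrix (Fin n) (Fin n) F) j l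
          else (A : Matrix (Fin n) (Fin n) F) k l := by
        intro k l
        have e : (B : Matrix (Fin n) (Fin n) F) = transvection i j (-a) * (A : Matrix (Fin n) (Fin n) F) := rfl
        rw [e]
        by_cases hk : k = i
        · subst hk
          rw [if_pos rfl, transvection_mul_apply_same, hrow]
        · rw [if_neg hk, transvection_mul_apply_of_ne _ _ _ _ hk]
      have hsub : supp (B : Matrix (Fin n) (Fin n) F) ⊂ supp (A : Matrix (Fin n) (Fin n) F) := by
        rw [Finset.ssubset_iff_of_subset]
        · refine ⟨(i, j), hp, ?_⟩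
          rw [mem_supp]
          simp only [not_not]
          rw [hBe, if_pos rfl, Matrix.one_apply_eq, Matrix.one_apply_ne hij.ne]
          simp [ha]
        · intro q hq
          obtain ⟨k, l⟩ := q
          rw [mem_supp] at hq ⊢
          simp only at hq ⊢
          rw [hBe] at hq
          by_cases hk : k = i
          · subst hk
            rw [if_pos rfl] at hq
            by_cases hl : l = j
            · subst hl
              rw [Matrix.one_apply_eq, mul_one, ← ha] at hq
              rw [Matrix.one_apply_ne hij.ne] at hq ⊢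
              simp at hq
            · rw [Matrix.one_apply_ne (Ne.symm hl), mul_zero, add_zero] at hq
              exact hq
          · rwa [if_neg hk] at hq
      have hlt := Finset.card_lt_card hsub
      have hB' : B ∈ Subgroup.closure (genE (n := n) (F := F)) := ih B hBU (by omega)
      have e1 : ele i j hij a * ele i j hij (-a) = 1 := by
        apply Subtype.ext
        show transvection i j a * transvection i j (-a) = 1
        rw [transvection_mul_transvection_same _ _ hij.ne]
        simp
      have e2 : A = ele i j hij a * B := by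
        rw [hB, ← mul_assoc, e1, one_mul]
      rw [e2]
      exact Subgroup.mul_mem _ (Subgroup.subset_closure ⟨i, j, hij, a, rfl⟩) hB'
  intro A hA
  exact key _ A hA le_rfl

theorem ele_sq [CharP F 2] (i j : Fin n) (hij : i < j) (a : F) : ele i j hij a ^ 2 = 1 := by
  apply Subtype.ext
  rw [pow_two]
  show transvection i j a * transvection i j a = 1
  rw [transvection_mul_transvection_same _ _ hij.ne, CharTwo.add_self_eq_zero]
  simp

theorem U_sq [CharP F 2] : SqD (U n F) := by
  refine SqD.of_closure U_le_closure ?_ ?_
  · rintro _ ⟨i, j, hij, a, rfl⟩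
    exact ele_mem _ _ _ _
  · rintro _ ⟨i, j, hij, a, rfl⟩
    rw [ele_sq]
    exact Subgroup.one_mem _

/-- `PSL_n(F)`. -/
theorem psl [CharP F 2] (n : ℕ) (hn : 1 ≤ n) (P : Sylow 2 (Matrix.ProjectiveSpecialLinearGroup (Fin n) F)) :
    ∀ x : (P : Subgroup (Matrix.ProjectiveSpecialLinearGroup (Fin n) F)),
      x ^ 2 ∈ commutator (P : Subgroup (Matrix.ProjectiveSpecialLinearGroup (Fin n) F)) := by
  obtain ⟨f, hp, hF⟩ := FiniteField.card F 2
  have hf : 1 ≤ (f : ℕ) := f.pos
  have hS : ∃ S : Sylow 2 (Matrix.SpecialLinearGroup (Fin n) F), (S : Subgroup _) = U n F :=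
    ⟨(isPGroup_U (n := n) hp hF).toSylow (not_dvd_index hp hF hf hn), rfl⟩
  exact final_of (QuotientGroup.mk' _) (QuotientGroup.mk'_surjective _) hS U_sq P

end Cfsg.Agent.Lib.SqDer.PSL
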