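import Cfsg.Agent.Lib.SqDer.Basic
import Cfsg.Agent.Lib.Suzuki.Sylow2
import Cfsg.Agent.Lib.SzIso.Basic

/-!
The Suzuki groups: squares of elements of the Sylow `2`-subgroup lie in its derived subgroup.
-/

set_option autoImplicit false

namespace Cfsg.Agent.Lib.SqDer.Suz

open Cfsg Cfsg.Agent.Lib.Suzuki.Core Cfsg.Agent.Lib.Suzuki.Elements Cfsg.Agent.Lib.Suzuki.Stab
open Cfsg.Agent.Lib.Suzuki.Group Cfsg.Agent.Lib.Suzuki.Simple Cfsg.Agent.Lib.Suzuki.Sylow2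
open Cfsg.Agent.Lib.SqDer
open scoped commutatorElement

variable {F : Type*} [Field F] [Fintype F] {m : ℕ}

lemma sq_Usub [CharP F 2] (hc : Ctx F m) : SqD (Usub hc) := by
  rintro _ ⟨a, b, rfl⟩
  rw [pow_two, uS_sq]
  obtain ⟨a₁, a₂, h⟩ := exists_comm_value hc (th m a * a)
  have e : uS hc 0 (th m a * a) = ⁅uS hc a₁ 0, uS hc a₂ 0⁆ := by
    rw [uS_comm_formula, h]
  rw [e]
  exact Subgroup.commutator_mem_commutator (uS_mem hc _ _) (uS_mem hc _ _)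

theorem suz (hm : 1 ≤ m) (hF : Fintype.card F = 2 ^ (2 * m + 1)) (P : Sylow 2 ↥(Lie.Sz F (2 ^ (m + 1)))) :
    ∀ x : (P : Subgroup ↥(Lie.Sz F (2 ^ (m + 1)))), x ^ 2 ∈ commutator (P : Subgroup ↥(Lie.Sz F (2 ^ (m + 1)))) := by
  haveI := charP_two_of_card hF
  have hc := ctx_of_card hm hF
  exact final_of (Cfsg.Agent.Lib.SzIso.Basic.equivSz hc).toMonoidHom (Cfsg.Agent.Lib.SzIso.Basic.equivSz hc).surjective
    ⟨UU hc, coe_UU hc⟩ (sq_Usub hc) P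

end Cfsg.Agent.Lib.SqDer.Suz
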