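import Cfsg.Agent.Lib.SqDer.Classical
import Cfsg.Agent.Lib.SqDer.PSL
import Cfsg.Agent.Lib.SqDer.F4
import Cfsg.Agent.Lib.SqDer.Suz
import Cfsg.Prelude.Def_LieTypeChar

/-!
The groups of Lie type in characteristic two: in a Sylow `2`-subgroup squares lie in the derived subgroup.
-/

set_option autoImplicit false
set_option linter.unusedVariables false

namespace Cfsg.Agent.Lib.SqDer.Main

open Cfsg Cfsg.Agent.Lib.SqDer

/-- Transport along an isomorphism. -/
theorem transport {G H : Type*} [Group G] [Group H] [Finite H] (e : G ≃* H)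
    (h : ∀ Q : Sylow 2 H, ∀ x : (Q : Subgroup H), x ^ 2 ∈ commutator (Q : Subgroup H)) (P : Sylow 2 G) :
    ∀ x : (P : Subgroup G), x ^ 2 ∈ commutator (P : Subgroup G) := by
  haveI : Finite G := Finite.of_equiv H e.symm.toEquiv
  obtain ⟨Q⟩ : Nonempty (Sylow 2 H) := inferInstance
  refine final_of e.symm.toMonoidHom e.symm.surjective ⟨Q, rfl⟩ ?_ P
  intro x hx
  have h1 := h Q ⟨x, hx⟩
  rw [← Subgroup.map_subtype_commutator]
  exact ⟨_, h1, rfl⟩

theorem main {G : Type*} [Group G] (hG : Cfsg.IsLieTypeChar 2 G) (P : Sylow 2 G) :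
    ∀ x : (P : Subgroup G), x ^ 2 ∈ commutator (P : Subgroup G) := by
  rcases hG with ⟨F, _, _, _, n, hn, -, ⟨e⟩⟩ | ⟨F, _, _, _, m, hm, -, ⟨e⟩⟩ | ⟨F, _, _, _, n, q, hF, hn, -, ⟨e⟩⟩ |
    ⟨F, _, _, _, m, -, hodd, -⟩ | ⟨F, _, _, _, m, hm, ⟨e⟩⟩ | ⟨F, _, _, _, m, a, b, hm, hab, ⟨e⟩⟩ | h | h | ⟨-, h⟩ | ⟨-, h⟩ | ⟨h3, -⟩
  · exact transport e (PSL.psl n (by omega)) P
  · exact transport e (Classical.psp m (by omega)) P
  · exact transport e (Classical.psu hF n (by omega)) P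
  · exfalso
    obtain ⟨k, _, hk⟩ := FiniteField.card F 2
    rw [hk] at hodd
    exact (Nat.not_even_iff_odd.mpr hodd) ((even_two).pow_of_ne_zero k.ne_zero)
  · exact transport e (Classical.pomega_plus m (by omega) (Or.inr (by omega))) P
  · exact transport e (Classical.pomega_minus hab) P
  · obtain ⟨F, _, _, _, h⟩ := h
    rcases h with ⟨-, e⟩ | e | e | e | e <;> obtain ⟨e⟩ := e
    · exact transport e (Excep.chev (by simp)) P
    · exact transport e (Excep.chev (by simp)) P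
    · exact transport e (Excep.chev (by simp)) P
    · exact transport e (Excep.chev (by simp)) P
    · exact transport e (Excep.chev (by simp)) P
  · obtain ⟨K, _, _, _, q, hq, ⟨hK, ⟨e⟩⟩ | ⟨hK, ⟨e⟩⟩⟩ := h
    · exact transport e (Excep.e6 hq hK) P
    · exact transport e (Excep.d4 hq hK) P
  · obtain ⟨F, _, _, m, hm, hF, ⟨e⟩⟩ := h
    exact transport e (Suz.suz hm hF) P
  · obtain ⟨K, _, _, m, hm, hK, ⟨e⟩⟩ := h
    exact transport e (F4.f4 hm hK) P
  · norm_num at h3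

end Cfsg.Agent.Lib.SqDer.Main
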