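import Cfsg.Agent.Lib.Polar.Main
import Cfsg.Agent.Lib.SqDer.Basic

/-!
The unipotent subgroup of a polar group in characteristic two: it is generated by root elements, and the
square of a root element is a commutator.
-/

set_option autoImplicit false
set_option linter.unusedSectionVars false
set_option linter.unusedVariables false

namespace Cfsg.Agent.Lib.SqDer.PolarS

open Cfsg.Agent.Lib.Polar Module
open scoped commutatorElement

variable {F V : Type*} [Field F] [AddCommGroup V] [Module F V] {P : SForm F V} {r : ℕ}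

variable [FiniteDimensional F V]

section key

variable {a y : V} {c c' τ : F}

omit [FiniteDimensional F V] in
lemma f_El_a' {a y : V} (ha : P.Nm a = 0) (hay : P.f a y = 0) (c : F) (z : V) :
    P.f (z + P.f z a • y + (- P.σ P.ε * P.f z y + P.f z a * c) • a) a = P.f z a := by
  have haa : P.f a a = 0 := P.f_self a ha
  have hya : P.f y a = 0 := SForm.swap_zero hay
  rw [P.add_l, P.add_l, P.smul_l, P.smul_l, hya, haa]
  simp

omit [FiniteDimensional F V] in
lemma f_El_w' {a y w : V} (hw : P.f a w = 0) (c : F) (z : V) :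
    P.f (z + P.f z a • y + (- P.σ P.ε * P.f z y + P.f z a * c) • a) w = P.f z w + P.f z a * P.f y w := by
  rw [P.add_l, P.add_l, P.smul_l, P.smul_l, hw]
  simp

/-- The basic identity between two root elements at the same centre. -/
lemma El_key (h2 : (2 : F) = 0) (ha : P.Nm a = 0) (hay : P.f a y = 0) (hc : Compat P y c)
    (hay' : P.f a (τ • y) = 0) (hc' : Compat P (τ • y) c') (hτ : P.f y y * (P.σ τ + τ + 1) = 0) :
    ElG ha hay hc * ElG ha hay' hc' * ElG ha hay hc = ElG ha hay' hc' := by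
  apply Subtype.ext
  apply LinearEquiv.ext
  intro x
  show (ElG ha hay hc).1 ((ElG ha hay' hc').1 ((ElG ha hay hc).1 x)) = (ElG ha hay' hc').1 x
  have E1 : ∀ z, (ElG ha hay hc).1 z = z + P.f z a • y + (- P.σ P.ε * P.f z y + P.f z a * c) • a := fun _ => rfl
  have E2 : ∀ z, (ElG ha hay' hc').1 z = z + P.f z a • (τ • y) + (- P.σ P.ε * P.f z (τ • y) + P.f z a * c') • a :=
    fun _ => rfl
  have hyy' : P.f y (τ • y) = P.f y y * P.σ τ := P.smul_r _ _ _
  have hy'y : P.f (τ • y) y = τ * P.f y y := P.smul_l _ _ _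
  have a1 : P.f ((ElG ha hay hc).1 x) a = P.f x a := by rw [E1]; exact f_El_a' ha hay c x
  have w1 : P.f ((ElG ha hay hc).1 x) (τ • y) = P.f x (τ • y) + P.f x a * (P.f y y * P.σ τ) := by
    rw [E1, f_El_w' hay' c x, hyy']
  have w2 : P.f ((ElG ha hay hc).1 x) y = P.f x y + P.f x a * P.f y y := by
    rw [E1, f_El_w' hay c x]
  set z₁ := (ElG ha hay hc).1 x with hz₁
  have a2 : P.f ((ElG ha hay' hc').1 z₁) a = P.f x a := by rw [E2]; rw [f_El_a' ha hay' c' z₁, a1]
  have w3 : P.f ((ElG ha hay' hc').1 z₁) y = P.f x y + P.f x a * P.f y y + P.f x a * (τ * P.f y y) := by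
    rw [E2, f_El_w' hay c' z₁, w2, a1, hy'y]
  set z₂ := (ElG ha hay' hc').1 z₁ with hz₂
  rw [E1 z₂, a2, w3, hz₂, E2 z₁, a1, w1, hz₁, E1 x, E2 x]
  set s := - P.σ P.ε with hs
  set A := P.f x a with hA
  set Y := P.f x y with hY
  set D := P.f y y with hD
  set Z := P.f x (τ • y) with hZ
  have hcoef : (s * Y + A * c) + (s * (Z + A * (D * P.σ τ)) + A * c') + (s * (Y + A * D + A * (τ * D)) + A * c)
      = s * Z + A * c' := by
    have h3 : s * (A * (D * (P.σ τ + τ + 1))) = 0 := by rw [hτ, mul_zero, mul_zero]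
    linear_combination (s * Y + A * c) * h2 + h3
  have hA2 : A + A = 0 := by linear_combination A * h2
  have e5 : x + A • y + (s * Y + A * c) • a + A • τ • y + (s * (Z + A * (D * P.σ τ)) + A * c') • a + A • y +
        (s * (Y + A * D + A * (τ * D)) + A * c) • a =
      x + A • τ • y + ((A + A) • y) + ((s * Y + A * c) + (s * (Z + A * (D * P.σ τ)) + A * c') + (s * (Y + A * D + A * (τ * D)) + A * c)) • a := by
    module
  rw [e5, hcoef, hA2]
  simp

/-- The element `τ` of the key identity. -/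
lemma exists_tau (h2 : (2 : F) = 0) (hc : Compat P y c) : ∃ τ : F, P.f y y * (P.σ τ + τ + 1) = 0 := by
  by_cases hσ : ∀ t, P.σ t = t
  · refine ⟨0, ?_⟩
    have h1 := hc.1
    rw [hσ] at h1
    have hε : P.ε * P.ε = 1 := by
      have := P.εσε
      rwa [hσ] at this
    have h3 : (P.ε - 1) * (P.ε - 1) = 0 := by linear_combination hε - P.ε * h2 + h2
    have h4 : P.ε = 1 := by
      rcases mul_self_eq_zero.mp h3 with h5
      exact sub_eq_zero.mp h5
    rw [h4] at h1
    have h5 : P.f y y = 0 := by linear_combination h1 - c * h2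
    rw [h5, zero_mul]
  · push Not at hσ
    obtain ⟨t, ht⟩ := hσ
    have hs0 : t + P.σ t ≠ 0 := by
      intro h
      apply ht
      linear_combination h - t * h2
    have hσs : P.σ (t + P.σ t) = t + P.σ t := by
      rw [map_add, P.σσ, add_comm]
    refine ⟨t / (t + P.σ t), ?_⟩
    have e : P.σ (t / (t + P.σ t)) + t / (t + P.σ t) + 1 = 0 := by
      rw [map_div₀, hσs]
      field_simp
      linear_combination (t + P.σ t) * h2
    rw [e, mul_zero]

end key

namespace Frame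

variable (Fr : Frame P r)

/-- The generating root elements. -/
def genT : Set (isoG P) :=
  {u | ∃ (k : ℕ) (hk : k < r) (y : V) (c : F) (hay : P.f (Fr.e k) y = 0) (hc : Compat P y c),
    (∀ i, i ≤ k → P.f y (Fr.e i) = 0) ∧ u = ElG (Fr.Ne k hk) hay hc}

lemma genT_sub : genT Fr ⊆ Fr.UU := by
  rintro _ ⟨k, hk, y, c, hay, hc, hy, rfl⟩
  exact Cfsg.Agent.Lib.Polar.Frame.El_mem_UU (Fr := Fr) hk hy _ _ _

lemma UU_le_closure : Fr.UU ≤ Subgroup.closure (genT Fr) := by
  intro u hu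
  have hHU : Subgroup.closure (genT Fr) ≤ Fr.UU := (Subgroup.closure_le _).mpr (genT_sub Fr)
  have hc := Cfsg.Agent.Lib.Polar.Frame.UU_top (Fr := Fr) hu (Cfsg.Agent.Lib.Polar.Frame.cH_top (Fr := Fr))
  obtain ⟨v, hv, e⟩ := Cfsg.Agent.Lib.Polar.Frame.UU_reg (Fr := Fr) (Subgroup.closure (genT Fr)) hHU
    (fun k hk y c hay hcc hy => Subgroup.subset_closure ⟨k, hk, y, c, hay, hcc, hy, rfl⟩) hc
  have h1 : v⁻¹ * u = 1 := by
    apply Cfsg.Agent.Lib.Polar.Frame.UU_free (Fr := Fr) (Fr.UU.mul_mem (Fr.UU.inv_mem (hHU hv)) hu)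
    rw [mul_smul, ← e, inv_smul_smul]
  have h2 : u = v := by
    have : u = v * (v⁻¹ * u) := by group
    rw [this, h1, mul_one]
  rw [h2]
  exact hv

/-- Squares in the unipotent group. -/
theorem UU_sq (h2 : (2 : F) = 0) : SqD Fr.UU := by
  refine SqD.of_closure (UU_le_closure Fr) (genT_sub Fr) ?_
  rintro _ ⟨k, hk, y, c, hay, hc, hy, rfl⟩
  obtain ⟨τ, hτ⟩ := exists_tau h2 hc
  obtain ⟨c', hc'⟩ := P.exists_compat (τ • y)
  have hc'' : Compat P (τ • y) c' := hc'
  have hay' : P.f (Fr.e k) (τ • y) = 0 := by rw [P.smul_r, hay, zero_mul]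
  have hy' : ∀ i, i ≤ k → P.f (τ • y) (Fr.e i) = 0 := by
    intro i hi
    rw [P.smul_l, hy i hi, mul_zero]
  have key := El_key h2 (Fr.Ne k hk) hay hc hay' hc'' hτ
  set g := ElG (Fr.Ne k hk) hay hc with hg
  set g' := ElG (Fr.Ne k hk) hay' hc'' with hg'
  have hgU : g ∈ Fr.UU := genT_sub Fr ⟨k, hk, y, c, hay, hc, hy, rfl⟩
  have hgU' : g' ∈ Fr.UU := genT_sub Fr ⟨k, hk, τ • y, c', hay', hc'', hy', rfl⟩
  have e : g ^ 2 = ⁅g', g⁻¹⁆ := by
    calc g ^ 2 = (g * g' * g) * g⁻¹ * g'⁻¹ * g := by rw [pow_two]; group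
      _ = g' * g⁻¹ * g'⁻¹ * g := by rw [key]
      _ = ⁅g', g⁻¹⁆ := by rw [commutatorElement_def, inv_inv]
  rw [e]
  exact Subgroup.commutator_mem_commutator hgU' (Fr.UU.inv_mem hgU)

end Frame

section group

variable {G : Type*} [Group G] (φ : G →* isoG P) (Fr : Frame P r)

/-- Squares in the unipotent subgroup of a group containing the root elements. -/
theorem UG_sq (hφ : Function.Injective φ) (hE : HasRoots φ.range) (h2 : (2 : F) = 0) : SqD (UG φ Fr) := by
  refine SqD.comap_of_injective (Frame.UU_sq Fr h2) φ hφ ?_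
  refine (Frame.UU_le_closure Fr).trans ((Subgroup.closure_le _).mpr ?_)
  rintro _ ⟨k, hk, y, c, hay, hc, hy, rfl⟩
  exact hE _ _ _ _ hay hc

/-- The final form. -/
theorem final_UG [Finite F] [Finite G] [CharP F 2] (hφ : Function.Injective φ) (hE : HasRoots φ.range)
    (hflip : Fr.Thin → ∀ g : G, φ g • Fr.cE ≠ Fr.cF)
    (hW : ∀ g : G, (∃ a, g ^ (2 ^ a) = 1) → φ g • Fr.cE = Fr.cE → ∀ x ∈ Fr.perp r, (φ g).1 x - x ∈ Fr.PP r)
    (Q : Sylow 2 (G ⧸ Subgroup.center G)) :
    ∀ x : (Q : Subgroup (G ⧸ Subgroup.center G)), x ^ 2 ∈ commutator (Q : Subgroup (G ⧸ Subgroup.center G)) :=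
  final_of (QuotientGroup.mk' _) (QuotientGroup.mk'_surjective _) (UG_sylow φ hφ Fr 2 hE hflip hW)
    (UG_sq φ Fr hφ hE CharTwo.two_eq_zero) Q

end group

end Cfsg.Agent.Lib.SqDer.PolarS
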