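import Cfsg.Agent.Lib.F24.InvForm
import Cfsg.Agent.Lib.SqDer.Basic

/-!
The unipotent subgroup of a twisted group: it suffices to control the squares in the fixed points of the
root classes.
-/

set_option autoImplicit false
set_option linter.unusedSectionVars false
set_option linter.unusedVariables false
set_option linter.ambiguousOpen false

namespace Cfsg.Agent.Lib.SqDer.Twist

open scoped MatrixGroups Matrix
open Cfsg _root_.Cfsg.Lie ChevalleyDatum
open Cfsg.Agent.Lib.Chev
open Tables Tables2 Tables3 Raise Basic AxBasic Torus Products Products2 Mono1 Mono2 Mono3 Bn ChevSimple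
open Cfsg.Agent.Lib.Twisted.Fact Cfsg.Agent.Lib.Twisted.Bruhat Cfsg.Agent.Lib.Twisted.Tw
open Cfsg.Agent.Lib.Twisted.Struct Cfsg.Agent.Lib.Twisted.Check
open Cfsg.Agent.Lib.Twisted.Struct.TD
open Cfsg.Agent.Lib.SqDer

section Generic

variable {D : ChevalleyDatum} {K : Type*} [Field K]
variable {h : Tab D} {ax : Ax D K} {tw : Tw h ax} {G1 : Subgroup (GL D.Idx K)} (T : TD h ax tw G1)
variable (h2 : Tab2 D)

include T h2

/-- Squares along a reduced word. -/
theorem sq_chain (hJ : ∀ j, SqD (fixCl tw (Psi D (T.J j)))) (L : List T.ι) (hL : Chain T L) :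
    SqD (fixCl tw (invP (chainW T L))) := by
  induction L with
  | nil =>
    rintro u ⟨hu, -⟩
    have : u = 1 := by
      refine rootClosure_induction ax (Q := fun u => u = 1) rfl ?_ (fun a b ha hb => by rw [ha, hb, one_mul]) hu
      rintro r t ⟨hr0, hr, hrn⟩
      exfalso
      exact not_isNeg_of_isPos h hr hrn
    rw [this]
    simp
  | cons j L ih =>
    obtain ⟨hj, hL'⟩ := hL
    obtain ⟨c, H0⟩ := T.chainN_nor L
    obtain ⟨c', Hn⟩ := T.n_nor j
    obtain ⟨π, hπ'⟩ : ∃ π, π = chainW T L * T.w j := ⟨_, rfl⟩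
    have hπ : chainW T (j :: L) = π := hπ'.symm
    obtain ⟨c₂, H⟩ : ∃ c₂, IsNor h ax (chainN T L * T.n j) π c₂ := ⟨_, by rw [hπ']; exact H0.mul h ax Hn⟩
    rw [hπ]
    have hneg : ∀ r : Fin D.nroots, Psi D (T.J j) r → D.IsNegRoot (π r) := by
      intro r hr
      have h3 := hj _ (T.w_neg j r hr)
      rw [H0.neg] at h3
      rw [hπ']
      exact (isPosRoot_neg h (chainW T L (T.w j r)).isLt).mp h3
    have hmul : π * T.w j = chainW T L := by
      apply Equiv.ext
      intro r
      simp [hπ', T.w_invol]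
    have hnF := T.n_fix j
    set s := T.n j with hs
    have hsub : ∀ r, Psi D (T.J j) r → invP π r := fun r hr => ⟨hr.1.1, hr.1, hneg ⟨r, hr.1.1⟩ hr⟩
    have hto : ∀ z ∈ rootClosure ax (invP (chainW T L)), s * z * s⁻¹ ∈ rootClosure ax (invP π) := by
      intro z hz
      rw [← hmul] at hz
      refine conj_closure Hn (fun r hr => hr.1) ?_ hz
      rintro r ⟨_, h3, h4⟩
      simp only [Fin.eta, Equiv.Perm.mul_apply] at h4
      have hco : Co D (T.J j) r := by
        rcases psi_or_co (T.J j) h3 with hq | hq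
        · exfalso
          have h5 := T.w_neg j r hq
          have h6 := hneg _ h5
          rw [H.neg] at h6
          exact not_isNeg_of_isPos h ((isNegRoot_neg h (π (T.w j r)).isLt).mp h6) h4
        · exact hq
      have hco' := T.w_co j r hco
      exact ⟨(T.w j r).isLt, hco'.1, by simpa using h4⟩
    let f : GL D.Idx K →* GL D.Idx K := (MulAut.conj s).toMonoidHom
    have hf : ∀ z, f z = s * z * s⁻¹ := fun z => rfl
    refine SqD.of_prod (A := fixCl tw (Psi D (T.J j))) (B := (fixCl tw (invP (chainW T L))).map f) ?_ ?_ ?_ (hJ j) (ih hL' |>.map f)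
    · rintro x ⟨hx, hxF⟩
      exact ⟨rootClosure_mono ax hsub hx, hxF⟩
    · rintro _ ⟨z, ⟨hz, hzF⟩, rfl⟩
      rw [hf]
      exact ⟨hto z hz, Subgroup.mul_mem _ (Subgroup.mul_mem _ hnF hzF) (Subgroup.inv_mem _ hnF)⟩
    · intro u hu
      obtain ⟨x, hx, z, hz, e⟩ := Cfsg.Agent.Lib.F24.InvForm.factor_step T h2
        (Subgroup.mul_mem _ (T.chainN_mono L) (T.n_mono j))
        (T.G1_le (Subgroup.mul_mem _ (T.chainN_mem L) (T.n_mem j))) H j hneg hu
      rw [hmul] at hz
      exact ⟨x, hx, f z, ⟨z, hz, rfl⟩, e⟩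

/-- Squares in the unipotent group. -/
theorem sq_U (hJ : ∀ j, SqD (fixCl tw (Psi D (T.J j)))) (L : List T.ι) (hL : Chain T L)
    (hneg : ∀ r : Fin D.nroots, D.IsPosRoot r → D.IsNegRoot (chainW T L r)) : SqD (D.posUnipotent K ⊓ G1) := by
  have : D.posUnipotent K ⊓ G1 = fixCl tw (invP (chainW T L)) := by
    apply le_antisymm
    · rintro u ⟨hu, huG⟩
      refine ⟨?_, T.G1_le huG⟩
      rw [posUnipotent_eq ax] at hu
      exact rootClosure_mono ax (fun r hr => ⟨hr.1, hr, hneg ⟨r, hr.1⟩ hr⟩) hu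
    · rintro u ⟨hu, huF⟩
      have hU : u ∈ D.posUnipotent K := by
        rw [posUnipotent_eq ax]
        exact rootClosure_mono ax (fun r hr => hr.2.1) hu
      exact ⟨hU, T.U_fix h2 hU huF.2⟩
  rw [this]
  exact sq_chain T h2 hJ L hL

end Generic

section Tab

variable {D : ChevalleyDatum} {K : Type*} [Field K] {c : ℕ} (C : ClsTab D c)
variable {h : Tab D} {ax : Ax D K} {tw : Tw h ax} {G1 : Subgroup (GL D.Idx K)}

/-- The version from tables. -/
theorem sq_of_tables (h2 : Tab2 D) (F : C.Facts h tw.ρ) (n : Fin c → GL D.Idx K)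
    (G1_le : G1 ≤ tw.Fx) (n_mem : ∀ j, n j ∈ G1) (n_mono : ∀ j, n j ∈ D.monomialSubgroup K)
    (n_nor : ∀ j, ∃ c', IsNor h ax (n j) (wPw h (C.wl j)) c')
    (cl : ∀ j g, g ∈ rootClosure ax (Psi D (· ∈ C.cls j)) → tw.s g = g → g ∈ G1)
    (x_ne : ∀ j, ∃ x ∈ rootClosure ax (Psi D (· ∈ C.cls j)), x ∈ G1 ∧ x ≠ 1)
    (gen : G1 ≤ (D.posUnipotent K ⊓ G1) ⊔ (D.negUnipotent K ⊓ G1))
    (hch : C.chainB C.L₀ = true) (hJ : ∀ j, SqD (fixCl tw (Psi D (· ∈ C.cls j)))) :
    SqD (D.posUnipotent K ⊓ G1) := by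
  let T := C.mkTD F n G1_le n_mem n_mono n_nor cl x_ne gen
  have hw : ∀ L, TD.chainW T L = wPw h (C.flat L) := C.mkTD_chainW F n G1_le n_mem n_mono n_nor cl x_ne gen
  have hl : ∀ L, ∀ i ∈ C.flat L, i < D.rank := fun L => C.flat_lt (fun j => (F.cf j).wl_lt) L
  have hC : ∀ L, C.chainB L = true → TD.Chain T L := by
    intro L
    induction L with
    | nil => intro _; trivial
    | cons j L ih =>
      intro hb
      simp only [ClsTab.chainB, Bool.and_eq_true] at hb
      refine ⟨?_, ih hb.2⟩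
      intro r hr
      rw [hw L, ]
      have := allBelow_spec hb.1 r r.isLt
      simp only [Bool.or_eq_true, Bool.not_eq_true', decide_eq_true_eq] at this
      rcases this with h3 | h3
      · have h4 : psiB D (C.cls j) r = true := psiB_iff.mpr hr
        rw [h3] at h4
        exact absurd h4 (by simp)
      · rw [wPw_val h (hl L)]
        exact h3
  exact sq_U T h2 hJ C.L₀ (hC _ hch) (fun r hr => by
    have e := hw C.L₀
    have e2 : ((TD.chainW T C.L₀ r : Fin D.nroots) : ℕ) = wWord D (C.flat C.L₀) r := by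
      rw [e, wPw_val h (hl _)]
    rw [e2]
    exact F.neg₀ r hr)

end Tab

end Cfsg.Agent.Lib.SqDer.Twist
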